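-- Team project FW (S3211, owner helper44): packages [SL2U] and [SL2SQ] (helper52).
import Mathlib
import Cfsg.Agent.Lib.Helper44.FW.Defs

set_option autoImplicit false

namespace Cfsg.Agent.Lib.Helper52.FW
open Cfsg.Agent.Lib.Helper44.FW

universe u

/-- Cayley–Hamilton for `2 × 2` matrices of determinant one. -/
theorem fw_ch {F : Type u} [Field F] (m : Matrix (Fin 2) (Fin 2) F) (hm : m.det = 1) :
    m * m = (m 0 0 + m 1 1) • m - 1 := by
  rw [Matrix.det_fin_two] at hm
  ext i j
  fin_cases i <;> fin_cases j <;>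
    simp [Matrix.mul_apply, Fin.sum_univ_two, Matrix.sub_apply, Matrix.smul_apply] <;>
    first | ring1 | linear_combination (-1 : F) * hm

/-- Square roots in `SL₂` of an element of order four are unique up to sign. -/
theorem fw_sqrt_pm {F : Type u} [Field F] (h2 : (2 : F) ≠ 0) (x0 a b : Matrix (Fin 2) (Fin 2) F)
    (ha : a.det = 1) (hb : b.det = 1) (hx0 : x0 * x0 = -1) (haa : a * a = x0) (hbb : b * b = x0) :
    a = b ∨ a = -b := by
  have key : ∀ m : Matrix (Fin 2) (Fin 2) F, m.det = 1 → m * m = x0 →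
      (m 0 0 + m 1 1) • m = x0 + 1 ∧ (m 0 0 + m 1 1) ^ 2 = 2 := by
    intro m hm hmm
    have h1 := fw_ch m hm
    rw [hmm] at h1
    have h3 : (m 0 0 + m 1 1) • m = x0 + 1 := by rw [h1]; abel
    refine ⟨h3, ?_⟩
    have h4 : ((m 0 0 + m 1 1) • m) * ((m 0 0 + m 1 1) • m) = (x0 + 1) * (x0 + 1) := by rw [h3]
    rw [Matrix.smul_mul, Matrix.mul_smul, hmm, smul_smul] at h4
    have h5 : (x0 + 1) * (x0 + 1) = (2 : F) • x0 := by
      rw [add_mul, mul_add, mul_add, hx0, Matrix.mul_one, Matrix.one_mul, Matrix.mul_one, two_smul]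
      abel
    rw [h5] at h4
    by_contra hne
    have h6 : ((m 0 0 + m 1 1) * (m 0 0 + m 1 1) - 2) • x0 = 0 := by rw [sub_smul, h4, sub_self]
    have h7 : x0 = 0 := by
      rcases smul_eq_zero.mp h6 with h | h
      · exact absurd (by linear_combination h) hne
      · exact h
    rw [h7, Matrix.zero_mul] at hx0
    have h8 := congrFun (congrFun hx0 0) 0
    simp at h8
  obtain ⟨ha1, ha2⟩ := key a ha haa
  obtain ⟨hb1, hb2⟩ := key b hb hbb
  have hta : (a 0 0 + a 1 1) ≠ 0 := by
    intro h; rw [h] at ha2; simp at ha2; exact h2 ha2.symm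
  have htb : (b 0 0 + b 1 1) ≠ 0 := by
    intro h; rw [h] at hb2; simp at hb2; exact h2 hb2.symm
  have hpm : (a 0 0 + a 1 1) = (b 0 0 + b 1 1) ∨ (a 0 0 + a 1 1) = -(b 0 0 + b 1 1) := by
    have : ((a 0 0 + a 1 1) - (b 0 0 + b 1 1)) * ((a 0 0 + a 1 1) + (b 0 0 + b 1 1)) = 0 := by
      linear_combination ha2 - hb2
    rcases mul_eq_zero.mp this with h | h
    · left; linear_combination h
    · right; linear_combination h
  rcases hpm with h | h
  · left
    have h9 : (a 0 0 + a 1 1) • a = (a 0 0 + a 1 1) • b := by rw [ha1, h, hb1]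
    exact smul_right_injective _ hta h9
  · right
    have h9 : (a 0 0 + a 1 1) • a = (a 0 0 + a 1 1) • (-b) := by
      rw [ha1, h, neg_smul, smul_neg, neg_neg, hb1]
    exact smul_right_injective _ hta h9

/-- The involutions of `SL₂` in odd characteristic: only `-1`. -/
theorem fw_invol {F : Type u} [Field F] (h2 : (2 : F) ≠ 0) (m : Matrix (Fin 2) (Fin 2) F)
    (hm : m.det = 1) (hmm : m * m = 1) : m = 1 ∨ m = -1 := by
  have h1 := fw_ch m hm
  rw [hmm] at h1
  have h3 : (m 0 0 + m 1 1) • m = (2 : F) • (1 : Matrix (Fin 2) (Fin 2) F) := by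
    rw [two_smul]
    exact (eq_sub_iff_add_eq.mp h1).symm
  have h00 := congrFun (congrFun h3 0) 0
  have h01 := congrFun (congrFun h3 0) 1
  have h10 := congrFun (congrFun h3 1) 0
  have h11 := congrFun (congrFun h3 1) 1
  simp at h00 h01 h10 h11
  have ht : m 0 0 + m 1 1 ≠ 0 := by
    intro h
    rw [h] at h00
    simp at h00
    exact h2 h00.symm
  have hb : m 0 1 = 0 := by
    rcases h01 with h | h
    · exact absurd h ht
    · exact h
  have hc : m 1 0 = 0 := by
    rcases h10 with h | h
    · exact absurd h ht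
    · exact h
  rw [Matrix.det_fin_two, hb, hc] at hm
  have had : m 0 0 = m 1 1 := by
    have : (m 0 0 + m 1 1) * (m 0 0 - m 1 1) = 0 := by linear_combination h00 - h11
    rcases mul_eq_zero.mp this with h | h
    · exact absurd h ht
    · linear_combination h
  have hsq : (m 0 0 - 1) * (m 0 0 + 1) = 0 := by
    rw [← had] at hm
    linear_combination hm
  rcases mul_eq_zero.mp hsq with h | h
  · left
    ext i j
    fin_cases i <;> fin_cases j <;> simp [hb, hc]
    · linear_combination h
    · rw [← had]; linear_combination h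
  · right
    ext i j
    fin_cases i <;> fin_cases j <;> simp [hb, hc]
    · linear_combination h
    · rw [← had]; linear_combination h

theorem fw_negOne_val (F : Type u) [Field F] :
    ((negOne F : Matrix.SpecialLinearGroup (Fin 2) F) : Matrix (Fin 2) (Fin 2) F) = -1 := by
  ext i j
  fin_cases i <;> fin_cases j <;> simp [negOne]

/-- [SL2U] -/
theorem pkgSL2U : PkgSL2U.{u} := by
  intro F _ h2 x hx
  have h1 : (x : Matrix (Fin 2) (Fin 2) F) * (x : Matrix (Fin 2) (Fin 2) F) = 1 := by
    have h := congrArg (fun y : Matrix.SpecialLinearGroup (Fin 2) F =>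
      (y : Matrix (Fin 2) (Fin 2) F)) hx
    simpa [pow_two] using h
  rcases fw_invol h2 _ x.det_coe h1 with h | h
  · left
    exact Subtype.ext h
  · right
    apply Subtype.ext
    rw [fw_negOne_val]
    exact h

/-- [SL2SQ] -/
theorem pkgSL2SQ : PkgSL2SQ.{u} := by
  intro F _ h2 x a b hx ha hb
  have hx1 : (x : Matrix (Fin 2) (Fin 2) F) * (x : Matrix (Fin 2) (Fin 2) F) = -1 := by
    have h := congrArg (fun y : Matrix.SpecialLinearGroup (Fin 2) F =>
      (y : Matrix (Fin 2) (Fin 2) F)) hx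
    rw [fw_negOne_val] at h
    simpa [pow_two] using h
  have ha1 : (a : Matrix (Fin 2) (Fin 2) F) * (a : Matrix (Fin 2) (Fin 2) F)
      = (x : Matrix (Fin 2) (Fin 2) F) := by
    have h := congrArg (fun y : Matrix.SpecialLinearGroup (Fin 2) F =>
      (y : Matrix (Fin 2) (Fin 2) F)) ha
    simpa [pow_two] using h
  have hb1 : (b : Matrix (Fin 2) (Fin 2) F) * (b : Matrix (Fin 2) (Fin 2) F)
      = (x : Matrix (Fin 2) (Fin 2) F) := by
    have h := congrArg (fun y : Matrix.SpecialLinearGroup (Fin 2) F =>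
      (y : Matrix (Fin 2) (Fin 2) F)) hb
    simpa [pow_two] using h
  rcases fw_sqrt_pm h2 _ _ _ b.det_coe a.det_coe hx1 hb1 ha1 with h | h
  · left
    exact Subtype.ext h
  · right
    apply Subtype.ext
    rw [Matrix.SpecialLinearGroup.coe_mul, fw_negOne_val, mul_neg, mul_one]
    exact h

end Cfsg.Agent.Lib.Helper52.FW
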